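import Cfsg.Agent.H875.Mono.Split
import Cfsg.Agent.H496.Mono.Base

/-!
# S2187, M4c for `E₆` with the graph automorphism (helper875)

* `splitB` : `γ = ε ρ`, `w` commutes with `γ`, `b ∈ SS hp γ ε`, `⟨w b, b⟩ = 1`: then `w` is the product of the reflections
  in `c = b - w b` and `w c`.
-/

set_option autoImplicit false
set_option linter.unusedSectionVars false

namespace Cfsg.Agent.H875.Mono

section

variable {B : (Fin 6 → ℤ) → (Fin 6 → ℤ) → ℚ} {S : Set (Fin 6 → ℤ)} (H : RSys B S)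

/-- fixed by the graph automorphism of `E₆` -/
def Fx (x : Fin 6 → ℤ) : Prop := x 5 = x 0 ∧ x 4 = x 2

include H

/-- four dimensions are not enough -/
theorem RSys.fix6 {w : Module.End ℤ (Fin 6 → ℤ)} (hw : ∀ x y, B (w x) (w y) = B x y)
    (hwS : ∀ a ∈ S, w a ∈ S) (hw3 : ∀ x, w (w (w x)) = x) (hσ : ∀ x, Fx x → Fx (w x)) {b : Fin 6 → ℤ} (hb : b ∈ S)
    (h1 : B (w b) b = 1) (hbσ : Fx b) {y : Fin 6 → ℤ} (hy : Fx y) (y0 : B y b = 0) (y1 : B y (w b) = 0)
    (y2 : B y (w (w b)) = 0) : w y = y := by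
  by_contra hne
  obtain ⟨h0, hb1, hb2, -, -, -, -, -⟩ := H.plane hw hwS hw3 hb h1
  have hwl : ∀ x y, B (w x) y = B x (w (w y)) := fun x y => by rw [← hw x, hw3]
  have z0 : B b y = 0 := by rw [H.symm, y0]
  have z1 : B b (w y) = 0 := by rw [← hw, ← hw, hw3, H.symm, y2]
  have z2 : B b (w (w y)) = 0 := by rw [← hw, hw3, H.symm, y1]
  have hd1 : y - w y ≠ 0 := fun e => hne (sub_eq_zero.1 e).symm
  have hd2 : y + w y ≠ 0 := by
    intro e
    have e1 : w y = -y := eq_neg_of_add_eq_zero_right e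
    have e2 := hw3 y
    simp only [e1, map_neg, neg_neg] at e2
    exact hne (by rw [e1, e2])
  have p1 := H.pos _ hd1
  have p2 := H.pos _ hd2
  obtain ⟨N, hN⟩ : ∃ N, B y y = N := ⟨_, rfl⟩
  obtain ⟨t, ht⟩ : ∃ t, B y (w y) = t := ⟨_, rfl⟩
  have ht' : B (w y) y = t := by rw [H.symm, ht]
  have hN' : B (w y) (w y) = N := by rw [hw, hN]
  rw [H.sub_left, H.sub_right, H.sub_right, hN, ht, ht', hN'] at p1
  rw [H.add_left, H.add_right, H.add_right, hN, ht, ht', hN'] at p2
  let φ : (Fin 6 → ℤ) →ₗ[ℤ] (Fin 4 → ℤ) := LinearMap.funLeft ℤ ℤ ![0, 1, 2, 3]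
  let f : Fin 5 → Fin 6 → ℤ := ![b, w b, w (w b), y, w y]
  have hli : LinearIndependent ℤ fun i => φ (f i) := by
    rw [Fintype.linearIndependent_iff]
    intro n hn
    have hv : ∑ i, n i • f i = 0 := by
      have e1 : φ (∑ i, n i • f i) = 0 := by
        rw [map_sum, ← hn]
        exact Finset.sum_congr rfl fun i _ => map_smul _ _ _
      have e2 : Fx (∑ i, n i • f i) := by
        have g : ∀ i, Fx (f i) := by
          intro i
          fin_cases i
          · exact hbσ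
          · exact hσ _ hbσ
          · exact hσ _ (hσ _ hbσ)
          · exact hy
          · exact hσ _ hy
        constructor
        · rw [Finset.sum_apply, Finset.sum_apply]
          exact Finset.sum_congr rfl fun i _ => by rw [Pi.smul_apply, Pi.smul_apply, (g i).1]
        · rw [Finset.sum_apply, Finset.sum_apply]
          exact Finset.sum_congr rfl fun i _ => by rw [Pi.smul_apply, Pi.smul_apply, (g i).2]
      generalize ∑ i, n i • f i = v at e1 e2
      have c0 : v 0 = 0 := congrFun e1 0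
      have c1 : v 1 = 0 := congrFun e1 1
      have c2 : v 2 = 0 := congrFun e1 2
      have c3 : v 3 = 0 := congrFun e1 3
      funext i
      fin_cases i
      · exact c0
      · exact c1
      · exact c2
      · exact c3
      · exact e2.2.trans c2
      · exact e2.1.trans c0
    have key : ∀ y, ∑ p, n p * B (f p) y = 0 := fun y => by
      have h2 := H.sum_left Finset.univ n f y
      rw [hv, H.zero_left] at h2
      exact h2.symm
    have k0 := key b
    have k1 := key (w b)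
    have k2 := key (w (w b))
    have k3 := key y
    have k4 := key (w y)
    simp only [Fin.sum_univ_five, f, Matrix.cons_val_zero, Matrix.cons_val_one, Matrix.cons_val] at k0 k1 k2 k3 k4
    simp only [hwl b, hwl (w b), hw3, h0, hb1, hb2, y0, y1, y2, z0, z1, z2, hN, ht, ht', hN', hw y b, hw y (w b),
      hwl y b] at k0 k1 k2 k3 k4
    have m0 : (n 0 : ℚ) = 0 ∧ (n 1 : ℚ) = 0 ∧ (n 2 : ℚ) = 0 := by
      refine ⟨?_, ?_, ?_⟩ <;> linarith
    have m3 : ((n 3 : ℚ) + n 4) * (N + t) = 0 := by linarith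
    have m4 : ((n 3 : ℚ) - n 4) * (N - t) = 0 := by linarith
    have m5 : (n 3 : ℚ) + n 4 = 0 := (mul_eq_zero.1 m3).resolve_right (by intro e; linarith)
    have m6 : (n 3 : ℚ) - n 4 = 0 := (mul_eq_zero.1 m4).resolve_right (by intro e; linarith)
    have m7 : (n 3 : ℚ) = 0 := by linarith
    have m8 : (n 4 : ℚ) = 0 := by linarith
    have a0 : n 0 = 0 := by exact_mod_cast m0.1
    have a1 : n 1 = 0 := by exact_mod_cast m0.2.1
    have a2 : n 2 = 0 := by exact_mod_cast m0.2.2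
    have a3 : n 3 = 0 := by exact_mod_cast m7
    have a4 : n 4 = 0 := by exact_mod_cast m8
    intro i
    fin_cases i <;> assumption
  have h2 := hli.fintype_card_le_finrank
  rw [Module.finrank_fintype_fun_eq_card, Fintype.card_fin, Fintype.card_fin] at h2
  omega

/-- what is left fixes the vectors fixed by the graph automorphism -/
theorem RSys.fix6' {w u : Module.End ℤ (Fin 6 → ℤ)} (hw : ∀ x y, B (w x) (w y) = B x y)
    (hwS : ∀ a ∈ S, w a ∈ S) (hw3 : ∀ x, w (w (w x)) = x) (hu : ∀ x y, B (u x) (u y) = B x y)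
    (hσ : ∀ x, Fx x → Fx (w x)) {b : Fin 6 → ℤ} (hb : b ∈ S)
    (h1 : B (w b) b = 1) (hbσ : Fx b) {P Q : (Fin 6 → ℤ) → ℤ} (hP : ∀ x, B x (b - w b) = P x)
    (hQ : ∀ x, B x (w (b - w b)) = Q x) (hR : ∀ x, RSys.rot P Q (b - w b) (w (b - w b)) (u x) = w x)
    {x : Fin 6 → ℤ} (hx : Fx x) : u x = x := by
  obtain ⟨-, ub, uc, ud, u3⟩ := H.rest hw hwS hw3 hb h1 hP hQ hR
  obtain ⟨h0, hb1, hb2, -, -, -, -, -⟩ := H.plane hw hwS hw3 hb h1
  have uwb : u (w b) = w b := by
    have e : w b = b - (b - w b) := by abel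
    rw [e, map_sub, ub, uc]
  have uwwb : u (w (w b)) = w (w b) := by
    have e : w (w b) = b - (b - w b) - w (b - w b) := by rw [map_sub]; abel
    rw [e, map_sub, map_sub, ub, uc, ud]
  have t1 : B (w b) (w b) = 2 := by rw [hw, h0]
  have t2 : B (w (w b)) (w (w b)) = 2 := by rw [hw, hw, h0]
  have t3 : B (w b) (w (w b)) = 1 := by rw [hw, hb1]
  have t4 : B (w b) b = 1 := by rw [H.symm, hb1]
  have t5 : B (w (w b)) b = 1 := by rw [H.symm, hb2]
  have t6 : B (w (w b)) (w b) = 1 := by rw [H.symm, t3]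
  obtain ⟨q0, e0⟩ := H.int b hb x
  obtain ⟨q1, e1⟩ := H.int (w b) (hwS b hb) x
  obtain ⟨q2, e2⟩ := H.int (w (w b)) (hwS _ (hwS b hb)) x
  have hfadd : ∀ (m n : ℤ) (x y : Fin 6 → ℤ), Fx x → Fx y → Fx (m • x - n • y) := by
    intro m n x y hx hy
    constructor
    · rw [Pi.sub_apply, Pi.sub_apply, Pi.smul_apply, Pi.smul_apply, Pi.smul_apply, Pi.smul_apply, hx.1, hy.1]
    · rw [Pi.sub_apply, Pi.sub_apply, Pi.smul_apply, Pi.smul_apply, Pi.smul_apply, Pi.smul_apply, hx.2, hy.2]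
  obtain ⟨y, hy⟩ : ∃ y, y = (1 : ℤ) • ((1 : ℤ) • ((4 : ℤ) • x - (3 * q0 - q1 - q2) • b) -
      (3 * q1 - q0 - q2) • w b) - (3 * q2 - q0 - q1) • w (w b) := ⟨_, rfl⟩
  have hyF : Fx y := by
    rw [hy]
    exact hfadd _ _ _ _ (hfadd _ _ _ _ (hfadd _ _ _ _ hx hbσ) (hσ _ hbσ)) (hσ _ (hσ _ hbσ))
  rw [one_smul, one_smul] at hy
  have y0 : B y b = 0 := by
    rw [hy]
    simp only [H.sub_left, H.smul_left, e0, h0, t4, t5]
    push_cast; ring
  have y1 : B y (w b) = 0 := by
    rw [hy]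
    simp only [H.sub_left, H.smul_left, e1, hb1, t1, t6]
    push_cast; ring
  have y2 : B y (w (w b)) = 0 := by
    rw [hy]
    simp only [H.sub_left, H.smul_left, e2, hb2, t2, t3]
    push_cast; ring
  have hwy := H.fix6 hw hwS hw3 hσ hb h1 hbσ hyF y0 y1 y2
  have c0 : B (u y) (b - w b) = 0 := by
    nth_rw 1 [← uc]
    rw [hu, H.sub_right, y0, y1, sub_zero]
  have c1 : B (u y) (w (b - w b)) = 0 := by
    nth_rw 1 [← ud]
    rw [hu, map_sub, H.sub_right, y1, y2, sub_zero]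
  rw [hP] at c0
  rw [hQ] at c1
  have c0' : P (u y) = 0 := by exact_mod_cast c0
  have c1' : Q (u y) = 0 := by exact_mod_cast c1
  have huy : u y = y := by
    have h2 := hR y
    rw [hwy] at h2
    simp only [RSys.rot, c0', c1'] at h2
    rwa [add_zero, zero_smul, zero_smul, sub_zero, sub_zero] at h2
  have h4 : (4 : ℤ) • x = y + (3 * q0 - q1 - q2) • b + (3 * q1 - q0 - q2) • w b + (3 * q2 - q0 - q1) • w (w b) := by
    rw [hy]; abel
  have h5 : u ((4 : ℤ) • x) = (4 : ℤ) • x := by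
    rw [h4, map_add, map_add, map_add, map_smul, map_smul, map_smul, huy, ub, uwb, uwwb]
  rw [map_smul] at h5
  exact smul_right_injective _ (by norm_num : (4 : ℤ) ≠ 0) h5

end

section

open CoxeterSystem Cfsg Cfsg.Lie Cfsg.Lie.ChevalleyDatum
open Cfsg.Agent.ChevalleyStructure Cfsg.Agent.ChevalleyStructure.Elts Cfsg.Agent.ChevalleyStructure.CoxeterGeom
  Cfsg.Agent.ChevalleyStructure.CoxeterGeomTypes Cfsg.Agent.ChevalleyStructure.NPerm
open Cfsg.Agent.Tits.Roots Cfsg.Agent.Tits.Core Cfsg.Agent.Nodes Cfsg.Agent.Nodes.Reps Cfsg.Agent.Nodes.BNOf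
  Cfsg.Agent.Nodes.Coroot Cfsg.Agent.Nodes.SubComb Cfsg.Agent.KFacts.RgdSL Cfsg.Agent.H123.ExcComb
  Cfsg.Agent.Nodes.RGDChev Cfsg.Agent.BpExc.Fr
open Cfsg.Agent.H818.StrP.UTab Cfsg.Agent.H818.StrP.UAct
open Cfsg.Agent.H225.Gen (LL LL_rep LL_root LL_refl form_sum')
open Cfsg.Agent.H496.Mono (SS)

/-- an element fixing a strictly dominant vector is trivial -/
theorem eq_one_of_dominant {I W : Type*} [Fintype I] [DecidableEq I] [Group W] {M : CoxeterMatrix I}
    (cs : CoxeterSystem M W) {A : I → I → ℤ} (h : IsCartan M A) [Finite W] {w : W} {x : I → ℤ}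
    (hx : ∀ i, 0 < pairing A i x) (hw : rep cs h w x = x) : w = 1 := by
  have := Fintype.ofFinite W
  refine eq_one_of_nonneg cs h w fun i => ?_
  rcases nonneg_or_nonpos cs h w i with h1 | h1
  · exact h1
  exfalso
  have hpos : ∀ j, 0 < form cs h (sr j) x := by
    intro j
    have h2 := two_form cs h j x
    have h3 := form_pos cs h (isRoot_sr cs h j).ne_zero
    rw [form_comm]
    have h4 := mul_pos (hx j) h3
    omega
  have h2 : form cs h (rep cs h w (sr i)) x = form cs h (sr i) x := by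
    conv_lhs => rw [← hw]
    exact form_rep cs h w _ _
  have h3 : form cs h (rep cs h w (sr i)) x ≤ 0 := by
    have h1' : rep cs h w (sr i) ≤ 0 := h1
    generalize rep cs h w (sr i) = v at h1'
    have h4 : form cs h (∑ k, v k • sr k) x ≤ 0 := by
      rw [form_sum']
      refine Finset.sum_nonpos fun k _ => ?_
      exact mul_nonpos_of_nonpos_of_nonneg (h1' k) (hpos k).le
    rwa [← eq_sum_sr v] at h4
  have h4 := hpos i
  omega

/-- twice the half-sum of the positive roots of `E₆` -/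
def x6 : Fin 6 → ℤ := ![16, 22, 30, 42, 30, 16]

theorem pairing_x6 (i : Fin 6) : 0 < pairing (cartanOf chevE6 6) i x6 := by
  revert i
  decide +kernel

theorem Fx_x6 : Fx x6 := ⟨rfl, rfl⟩

theorem Fx_iff (x : Fin 6 → ℤ) : Fx x ↔ H720.TwFr.permE H720.TwFr.rho6 x = x := by
  constructor
  · intro hx
    funext i
    fin_cases i
    · exact hx.1
    · rfl
    · exact hx.2
    · rfl
    · exact hx.2.symm
    · exact hx.1.symm
  · intro hx
    exact ⟨congrFun hx 0, congrFun hx 2⟩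

/-- **M4c** for `E₆` and `γ = ε ρ` -/
theorem splitB {M : CoxeterMatrix (Fin 6)} (hp : IsType chevE6 6 M) {γ : (Fin 6 → ℤ) ≃+ (Fin 6 → ℤ)} {ε : ℤ}
    (hε : ε = 1 ∨ ε = -1) (hγ : ∀ x, γ x = ε • H720.TwFr.permE H720.TwFr.rho6 x) {w : M.Group} (hw : w ^ 3 = 1)
    (hγw : ∀ x, γ (rep M.toCoxeterSystem hp.isCartan w x) = rep M.toCoxeterSystem hp.isCartan w (γ x))
    {b : Fin 6 → ℤ} (hb : b ∈ SS hp γ ε)
    (h1 : cpr M.toCoxeterSystem hp.isCartan (rep M.toCoxeterSystem hp.isCartan w b) b = 1) {s₀ s₁ : M.Group}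
    (h0 : ∀ x, rep M.toCoxeterSystem hp.isCartan s₀ x = x -
      cpr M.toCoxeterSystem hp.isCartan x (b - rep M.toCoxeterSystem hp.isCartan w b) •
        (b - rep M.toCoxeterSystem hp.isCartan w b))
    (h1' : ∀ x, rep M.toCoxeterSystem hp.isCartan s₁ x = x -
      cpr M.toCoxeterSystem hp.isCartan x
        (rep M.toCoxeterSystem hp.isCartan w (b - rep M.toCoxeterSystem hp.isCartan w b)) •
        rep M.toCoxeterSystem hp.isCartan w (b - rep M.toCoxeterSystem hp.isCartan w b)) :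
    (s₀ * s₁)⁻¹ * w = 1 := by
  have h : HiList chevE6 := by simp [HiList]
  have hfin := finite_W hp M.toCoxeterSystem
  have hft := Fintype.ofFinite M.Group
  have H := rsys h hp M.toCoxeterSystem
  obtain ⟨hbL, hbγ⟩ := hb
  have hε0 : ε ≠ 0 := by rcases hε with rfl | rfl <;> norm_num
  have hbσ : Fx b := by
    rw [Fx_iff]
    rw [hγ] at hbγ
    exact smul_right_injective _ hε0 hbγ
  have hσ : ∀ x, Fx x → Fx (rep M.toCoxeterSystem hp.isCartan w x) := by
    intro x hx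
    rw [Fx_iff] at hx ⊢
    have h2 := hγw x
    rw [hγ, hγ, hx, map_smul] at h2
    exact smul_right_injective _ hε0 h2
  have hb1 : BB M.toCoxeterSystem hp (rep M.toCoxeterSystem hp.isCartan w b) b = 1 := by
    rw [BB_eq h hp _ _ hbL, h1, Int.cast_one]
  obtain ⟨-, -, -, hcS, -, -, -, -⟩ := H.plane (w := rep M.toCoxeterSystem hp.isCartan w) (BB_rep hp _ w)
    (fun a ha => LL_rep hp _ ha w) (rep_three hp _ hw) hbL hb1
  have hR := rot_rest h hp M.toCoxeterSystem hw hbL h1 h0 h1'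
  have h2 := H.fix6' (w := rep M.toCoxeterSystem hp.isCartan w)
    (u := rep M.toCoxeterSystem hp.isCartan ((s₀ * s₁)⁻¹ * w)) (BB_rep hp _ w) (fun a ha => LL_rep hp _ ha w)
    (rep_three hp _ hw) (BB_rep hp _ _) hσ hbL hb1 hbσ (fun x => BB_eq h hp _ x hcS)
    (fun x => BB_eq h hp _ x (LL_rep hp _ hcS w)) hR Fx_x6
  exact eq_one_of_dominant M.toCoxeterSystem hp.isCartan pairing_x6 h2

end

end Cfsg.Agent.H875.Mono
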