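import Mathlib

/-!
# Long roots and elements of order three (helper875, for S2187)

Abstract setting: `B` a positive definite form on `ℤ^l`, `S` a connected set of vectors of norm two, closed under its
reflections. `w` an isometry of order three, `b ∈ S` with `B (w b) b = 1`, `c := b - w b`.

* `RSys.stab` : an isometry `v` of order three commuting with `w` permutes `{c, w c, w w c}` cyclically;
* `RSys.split` : the rest of `w` outside the plane of `c` is trivial or has again some `b'` with `B (w' b') b' = 1`.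
-/

set_option autoImplicit false

namespace Cfsg.Agent.H875.Mono

theorem sq_bd {p : ℤ} (h : p ^ 2 ≤ 2) : -1 ≤ p ∧ p ≤ 1 := by
  constructor
  · by_contra h2
    push Not at h2
    nlinarith
  · by_contra h2
    push Not at h2
    nlinarith

/-- non-zero weights of `A₃` have norm at least `3 / 4` -/
theorem num_split {m p0 p1 p2 : ℤ} (hm : m ≤ 0)
    (h : 0 ≤ 96 * (1 + m) - 144 * (p0 ^ 2 + p1 ^ 2 + p2 ^ 2) + 36 * (p0 + p1 + p2) ^ 2) : p0 = 0 := by
  have h1 : 36 * (p0 ^ 2 + p1 ^ 2 + p2 ^ 2 + (p0 - p1) ^ 2 + (p1 - p2) ^ 2 + (p0 - p2) ^ 2) ≤ 96 := by linarith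
  have key3 : p0 ^ 2 + p1 ^ 2 + p2 ^ 2 + (p0 - p1) ^ 2 + (p1 - p2) ^ 2 + (p0 - p2) ^ 2 ≤ 2 := by
    generalize p0 ^ 2 + p1 ^ 2 + p2 ^ 2 + (p0 - p1) ^ 2 + (p1 - p2) ^ 2 + (p0 - p2) ^ 2 = x at h1
    omega
  have h2 := sq_nonneg p0
  have h3 := sq_nonneg p1
  have h4 := sq_nonneg p2
  have h5 := sq_nonneg (p0 - p1)
  have h6 := sq_nonneg (p1 - p2)
  have h7 := sq_nonneg (p0 - p2)
  obtain ⟨a1, a2⟩ := sq_bd (p := p0) (by omega)
  obtain ⟨a3, a4⟩ := sq_bd (p := p1) (by omega)
  obtain ⟨a5, a6⟩ := sq_bd (p := p2) (by omega)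
  clear h h1 h2 h3 h4 h5 h6 h7
  interval_cases p0 <;> interval_cases p1 <;> interval_cases p2 <;> first | rfl | (exfalso; omega)

variable {l : ℕ}

/-- the setting -/
structure RSys (B : (Fin l → ℤ) → (Fin l → ℤ) → ℚ) (S : Set (Fin l → ℤ)) : Prop where
  add_left : ∀ x y z, B (x + y) z = B x z + B y z
  symm : ∀ x y, B x y = B y x
  pos : ∀ x, x ≠ 0 → 0 < B x x
  two : ∀ a ∈ S, B a a = 2
  int : ∀ a ∈ S, ∀ x, ∃ n : ℤ, B x a = n
  refl : ∀ a ∈ S, ∀ b ∈ S, ∀ n : ℤ, B a b = n → a - n • b ∈ S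
  conn : ∀ a ∈ S, ∀ b ∈ S, ∃ d ∈ S, B a d ≠ 0 ∧ B b d ≠ 0
  span : ∀ x, (∀ a ∈ S, B x a = 0) → x = 0

namespace RSys

variable {B : (Fin l → ℤ) → (Fin l → ℤ) → ℚ} {S : Set (Fin l → ℤ)} (H : RSys B S)

include H

theorem add_right (x y z : Fin l → ℤ) : B x (y + z) = B x y + B x z := by
  rw [H.symm, H.add_left, H.symm y, H.symm z]

theorem zero_left (y : Fin l → ℤ) : B 0 y = 0 := by
  have h1 := H.add_left 0 0 y
  rw [add_zero] at h1
  linarith

theorem zero_right (y : Fin l → ℤ) : B y 0 = 0 := by rw [H.symm, H.zero_left]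

theorem neg_left (x y : Fin l → ℤ) : B (-x) y = -B x y := by
  have h1 := H.add_left (-x) x y
  rw [neg_add_cancel, H.zero_left] at h1
  linarith

theorem neg_right (x y : Fin l → ℤ) : B x (-y) = -B x y := by rw [H.symm, H.neg_left, H.symm]

theorem sub_left (x y z : Fin l → ℤ) : B (x - y) z = B x z - B y z := by
  rw [sub_eq_add_neg, H.add_left, H.neg_left, sub_eq_add_neg]

theorem sub_right (x y z : Fin l → ℤ) : B x (y - z) = B x y - B x z := by
  rw [H.symm, H.sub_left, H.symm y, H.symm z]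

theorem nsmul_left (n : ℕ) (x y : Fin l → ℤ) : B (n • x) y = n * B x y := by
  induction n with
  | zero => rw [zero_smul, H.zero_left, Nat.cast_zero, zero_mul]
  | succ n ih => rw [succ_nsmul, H.add_left, ih, Nat.cast_add, Nat.cast_one]; ring

theorem smul_left (n : ℤ) (x y : Fin l → ℤ) : B (n • x) y = n * B x y := by
  obtain ⟨m, rfl | rfl⟩ := n.eq_nat_or_neg
  · have h1 := H.nsmul_left m x y
    rw [← natCast_zsmul] at h1
    rw [h1, Int.cast_natCast]
  · have h1 := H.nsmul_left m x y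
    rw [← natCast_zsmul] at h1
    rw [neg_smul, H.neg_left, h1, Int.cast_neg, Int.cast_natCast]
    ring

theorem smul_right (n : ℤ) (x y : Fin l → ℤ) : B x (n • y) = n * B x y := by rw [H.symm, H.smul_left, H.symm]

theorem nonneg (x : Fin l → ℤ) : 0 ≤ B x x := by
  by_cases hx : x = 0
  · rw [hx, H.zero_left]
  · exact (H.pos x hx).le

theorem eq_zero {x : Fin l → ℤ} (hx : B x x = 0) : x = 0 := by
  by_contra hne
  exact absurd hx (H.pos x hne).ne'

theorem sum_left {ι : Type*} (s : Finset ι) (n : ι → ℤ) (f : ι → Fin l → ℤ) (y : Fin l → ℤ) :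
    B (∑ i ∈ s, n i • f i) y = ∑ i ∈ s, n i * B (f i) y := by
  classical
  induction s using Finset.induction_on with
  | empty => rw [Finset.sum_empty, Finset.sum_empty, H.zero_left]
  | insert a s ha ih => rw [Finset.sum_insert ha, Finset.sum_insert ha, H.add_left, H.smul_left, ih]

/-- the product of two vectors of norm two -/
theorem le_two {a b : Fin l → ℤ} (ha : B a a = 2) (hb : B b b = 2) : B a b ≤ 2 ∧ -2 ≤ B a b ∧ (B a b = 2 → a = b) ∧
    (B a b = -2 → a = -b) := by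
  have h1 := H.nonneg (a - b)
  have h2 := H.nonneg (a + b)
  have h1' : B (a - b) (a - b) = 4 - 2 * B a b := by
    rw [H.sub_left, H.sub_right, H.sub_right, ha, hb, H.symm b a]; ring
  have h2' : B (a + b) (a + b) = 4 + 2 * B a b := by
    rw [H.add_left, H.add_right, H.add_right, ha, hb, H.symm b a]; ring
  refine ⟨by linarith, by linarith, fun h => ?_, fun h => ?_⟩
  · exact sub_eq_zero.1 (H.eq_zero (by rw [h1', h]; norm_num))
  · exact eq_neg_of_add_eq_zero_left (H.eq_zero (by rw [h2', h]; norm_num))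

variable {w v : Module.End ℤ (Fin l → ℤ)}

/-- the plane of `c` -/
theorem plane (hw : ∀ x y, B (w x) (w y) = B x y) (hwS : ∀ a ∈ S, w a ∈ S) (hw3 : ∀ x, w (w (w x)) = x)
    {b : Fin l → ℤ} (hb : b ∈ S) (h1 : B (w b) b = 1) :
    B b b = 2 ∧ B b (w b) = 1 ∧ B b (w (w b)) = 1 ∧ b - w b ∈ S ∧ B (b - w b) (b - w b) = 2 ∧
      B (b - w b) (w (b - w b)) = -1 ∧ B (b - w b) (w (w (b - w b))) = -1 ∧
      (b - w b) + w (b - w b) + w (w (b - w b)) = 0 := by
  have h0 := H.two b hb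
  have h2 : B b (w b) = 1 := by rw [H.symm, h1]
  have h3 : B b (w (w b)) = 1 := by
    rw [← hw, hw3, h1]
  have h4 : B (w b) (w b) = 2 := by rw [hw, h0]
  have h5 : B (w b) (w (w b)) = 1 := by rw [hw, h2]
  refine ⟨h0, h2, h3, ?_, ?_, ?_, ?_, ?_⟩
  · have h6 := H.refl b hb (w b) (hwS b hb) 1 (by rw [h2, Int.cast_one])
    rwa [one_smul] at h6
  · rw [H.sub_left, H.sub_right, H.sub_right, h0, h4, h1, h2]; norm_num
  · rw [map_sub, H.sub_left, H.sub_right, H.sub_right, h2, h3, h4, h5]; norm_num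
  · rw [map_sub, map_sub, hw3, H.sub_left, H.sub_right, H.sub_right, h0, h3, h5, h1]; norm_num
  · rw [map_sub, map_sub, hw3]; abel

/-- nine vectors in dimension eight -/
theorem nine (hl : l ≤ 8) (hw : ∀ x y, B (w x) (w y) = B x y)
    (hw3 : ∀ x, w (w (w x)) = x) (hv : ∀ x y, B (v x) (v y) = B x y) (hv3 : ∀ x, v (v (v x)) = x)
    (hc : ∀ x, w (v x) = v (w x)) {b : Fin l → ℤ} (h0 : B b b = 2) (hb1 : B b (w b) = 1) (hb2 : B b (w (w b)) = 1)
    {t : ℤ} (e0 : B b (v b) = t) (e1 : B b (v (w b)) = t) (e2 : B b (v (w (w b))) = t) : False := by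
  have hwl : ∀ x y, B (w x) y = B x (w (w y)) := fun x y => by rw [← hw x, hw3]
  have hvl : ∀ x y, B (v x) y = B x (v (v y)) := fun x y => by rw [← hv x, hv3]
  have f0 : B b (v (v b)) = t := by rw [← hv, hv3, H.symm, e0]
  have f1 : B b (v (v (w b))) = t := by
    rw [H.symm]
    simp only [hvl, hwl, hv3, hc, e2]
  have f2 : B b (v (v (w (w b)))) = t := by
    rw [H.symm]
    simp only [hvl, hwl, hv3, hc, hw3, e1]
  -- `t ∈ {0, 1}`
  obtain ⟨l0, -, p0, -⟩ := H.le_two h0 (b := v b) (by rw [hv, h0])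
  obtain ⟨-, -, p1, -⟩ := H.le_two h0 (b := v (w b)) (by rw [hv, hw, h0])
  rw [e0] at l0 p0
  rw [e1] at p1
  have t2 : t ≠ 2 := by
    rintro rfl
    have h2 := p0 (by norm_num)
    have h3 := p1 (by norm_num)
    have h4 : w b = b := by
      have h5 : v (w b) = v b := by rw [← h3, ← h2]
      have h6 := congrArg v (congrArg v h5)
      rwa [hv3, hv3] at h6
    rw [h4, h0] at hb1
    norm_num at hb1
  have t3 : (0 : ℚ) ≤ 6 + 6 * t := by
    have h2 := H.nonneg (b + v b + v (v b))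
    simp only [H.add_left, H.add_right, hvl, hv3, h0, e0, f0] at h2
    linarith
  have t4 : t ≠ -1 := by
    rintro rfl
    have h2 : b + v b + v (v b) = 0 := by
      apply H.eq_zero
      simp only [H.add_left, H.add_right, hvl, hv3, h0, e0, f0]
      norm_num
    have h3 : B (b + v b + v (v b)) (w b) = 0 := by rw [h2, H.zero_left]
    simp only [H.add_left, hvl, hv3, hb1, e1, f1] at h3
    norm_num at h3
  have t01 : t = 0 ∨ t = 1 := by
    have h2 : t ≤ 2 := by exact_mod_cast l0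
    have h3 : (0 : ℤ) ≤ 6 + 6 * t := by exact_mod_cast t3
    omega
  -- the nine vectors
  let f : Fin 9 → Fin l → ℤ := ![b, w b, w (w b), v b, v (w b), v (w (w b)), v (v b), v (v (w b)), v (v (w (w b)))]
  have hli : LinearIndependent ℤ f := by
    rw [Fintype.linearIndependent_iff]
    intro n hn
    have key : ∀ y, ∑ p, n p * B (f p) y = 0 := fun y => by
      have h2 := H.sum_left Finset.univ n f y
      rw [hn, H.zero_left] at h2
      exact h2.symm
    have k : ∀ q, ∑ p, (n p : ℚ) * B (f p) (f q) = 0 := fun q => key (f q)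
    have k0 := k 0
    have k1 := k 1
    have k2 := k 2
    have k3 := k 3
    have k4 := k 4
    have k5 := k 5
    have k6 := k 6
    have k7 := k 7
    have k8 := k 8
    simp only [Fin.sum_univ_succ, f, Matrix.cons_val_zero, Matrix.cons_val_succ, Finset.univ_unique,
      Fin.default_eq_zero, Finset.sum_singleton, Matrix.cons_val] at k0 k1 k2 k3 k4 k5 k6 k7 k8
    simp only [hvl, hwl, hc, hw3, hv3, h0, hb1, hb2, e0, e1, e2, f0, f1, f2] at k0 k1 k2 k3 k4 k5 k6 k7 k8
    have K : n 0 = 0 ∧ n 1 = 0 ∧ n 2 = 0 ∧ n 3 = 0 ∧ n 4 = 0 ∧ n 5 = 0 ∧ n 6 = 0 ∧ n 7 = 0 ∧ n 8 = 0 := by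
      have c0 : (Fin.succ 0 : Fin 9) = 1 := rfl
      have c1 : ((Fin.succ 0).succ : Fin 9) = 2 := rfl
      have c2 : ((Fin.succ 0).succ.succ : Fin 9) = 3 := rfl
      have c3 : ((Fin.succ 0).succ.succ.succ : Fin 9) = 4 := rfl
      have c4 : ((Fin.succ 0).succ.succ.succ.succ : Fin 9) = 5 := rfl
      have c5 : ((Fin.succ 0).succ.succ.succ.succ.succ : Fin 9) = 6 := rfl
      have c6 : ((Fin.succ 0).succ.succ.succ.succ.succ.succ : Fin 9) = 7 := rfl
      have c7 : ((Fin.succ 0).succ.succ.succ.succ.succ.succ.succ : Fin 9) = 8 := rfl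
      simp only [c0, c1, c2, c3, c4, c5, c6, c7] at k0 k1 k2 k3 k4 k5 k6 k7 k8
      rcases t01 with rfl | rfl
      · norm_cast at k0 k1 k2 k3 k4 k5 k6 k7 k8
        omega
      · norm_cast at k0 k1 k2 k3 k4 k5 k6 k7 k8
        omega
    intro i
    obtain ⟨K0, K1, K2, K3, K4, K5, K6, K7, K8⟩ := K
    fin_cases i <;> assumption
  have h2 := hli.fintype_card_le_finrank
  rw [Module.finrank_fintype_fun_eq_card, Fintype.card_fin, Fintype.card_fin] at h2
  omega

/-- **M4b** : the `A₂` of a bad root is permuted cyclically -/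
theorem stab (hl : l ≤ 8) (hw : ∀ x y, B (w x) (w y) = B x y) (hwS : ∀ a ∈ S, w a ∈ S)
    (hw3 : ∀ x, w (w (w x)) = x) (hv : ∀ x y, B (v x) (v y) = B x y) (hv3 : ∀ x, v (v (v x)) = x)
    (hc : ∀ x, w (v x) = v (w x)) {b : Fin l → ℤ} (hb : b ∈ S) (h1 : B (w b) b = 1) :
    v (b - w b) = b - w b ∨ v (b - w b) = w (b - w b) ∨ v (b - w b) = w (w (b - w b)) := by
  obtain ⟨h0, hb1, hb2, hcS, hcc, -, -, -⟩ := H.plane hw hwS hw3 hb h1
  have hwl : ∀ x y, B (w x) y = B x (w (w y)) := fun x y => by rw [← hw x, hw3]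
  have hvl : ∀ x y, B (v x) y = B x (v (v y)) := fun x y => by rw [← hv x, hv3]
  obtain ⟨n0, e0⟩ := H.int b hb (v b)
  obtain ⟨n1, e1⟩ := H.int b hb (v (w b))
  obtain ⟨n2, e2⟩ := H.int b hb (v (w (w b)))
  rw [H.symm] at e0 e1 e2
  have x0 : B (b - w b) (v (b - w b)) = 2 * n0 - n1 - n2 := by
    simp only [map_sub, H.sub_left, H.sub_right, hwl, hc, hw3, e0, e1, e2]; ring
  have x1 : B (b - w b) (v (w (b - w b))) = 2 * n1 - n2 - n0 := by
    simp only [map_sub, H.sub_left, H.sub_right, hwl, hc, hw3, e0, e1, e2]; ring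
  have x2 : B (b - w b) (v (w (w (b - w b)))) = 2 * n2 - n0 - n1 := by
    simp only [map_sub, H.sub_left, H.sub_right, hwl, hc, hw3, e0, e1, e2]; ring
  have hc0 : b - w b ≠ 0 := by
    intro e
    rw [e, H.zero_left] at hcc
    norm_num at hcc
  generalize b - w b = c at *
  obtain ⟨l0, u0, p0, m0⟩ := H.le_two hcc (b := v c) (by rw [hv, hcc])
  obtain ⟨l1, u1, p1, m1⟩ := H.le_two hcc (b := v (w c)) (by rw [hv, hw, hcc])
  obtain ⟨l2, u2, p2, m2⟩ := H.le_two hcc (b := v (w (w c))) (by rw [hv, hw, hw, hcc])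
  rw [x0] at l0 u0 p0 m0
  rw [x1] at l1 u1 p1 m1
  rw [x2] at l2 u2 p2 m2
  have cast2 : ∀ n : ℤ, ((n : ℚ) ≤ 2 ↔ n ≤ 2) ∧ ((-2 : ℚ) ≤ n ↔ -2 ≤ n) ∧ ((n : ℚ) = 2 ↔ n = 2) ∧
      ((n : ℚ) = -2 ↔ n = -2) := fun n =>
    ⟨by exact_mod_cast Iff.rfl, by exact_mod_cast Iff.rfl, by exact_mod_cast Iff.rfl, by exact_mod_cast Iff.rfl⟩
  have y0 : (2 * n0 - n1 - n2 : ℚ) = ((2 * n0 - n1 - n2 : ℤ) : ℚ) := by push_cast; ring
  have y1 : (2 * n1 - n2 - n0 : ℚ) = ((2 * n1 - n2 - n0 : ℤ) : ℚ) := by push_cast; ring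
  have y2 : (2 * n2 - n0 - n1 : ℚ) = ((2 * n2 - n0 - n1 : ℤ) : ℚ) := by push_cast; ring
  rw [y0] at l0 u0 p0 m0
  rw [y1] at l1 u1 p1 m1
  rw [y2] at l2 u2 p2 m2
  rw [(cast2 _).1] at l0 l1 l2
  rw [(cast2 _).2.1] at u0 u1 u2
  rw [(cast2 _).2.2.1] at p0 p1 p2
  rw [(cast2 _).2.2.2] at m0 m1 m2
  have hneg : c ≠ -c := by
    intro e
    have h2 : B c c = -B c c := by
      conv_lhs => rw [e]
      rw [H.neg_left, ← e]
    rw [hcc] at h2
    norm_num at h2
  have hcases : (2 * n0 - n1 - n2 = 2 ∨ 2 * n1 - n2 - n0 = 2 ∨ 2 * n2 - n0 - n1 = 2) ∨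
      (2 * n0 - n1 - n2 = -2 ∨ 2 * n1 - n2 - n0 = -2 ∨ 2 * n2 - n0 - n1 = -2) ∨ (n1 = n0 ∧ n2 = n0) := by
    omega
  rcases hcases with (h2 | h2 | h2) | (h2 | h2 | h2) | ⟨h2, h3⟩
  · left
    exact (p0 h2).symm
  · right; right
    have h3 := congrArg w (congrArg w (p1 h2))
    rw [hc, hc, hw3] at h3
    exact h3.symm
  · right; left
    have h3 := congrArg w (p2 h2)
    rw [hc, hw3] at h3
    exact h3.symm
  · exfalso
    have h3 : v c = -c := neg_eq_iff_eq_neg.1 (m0 h2).symm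
    exact hneg (by
      calc c = v (v (v c)) := (hv3 c).symm
        _ = -c := by simp only [h3, map_neg, neg_neg])
  · exfalso
    have h3 : v c = -w (w c) := by
      have h4 := congrArg w (congrArg w (m1 h2))
      rw [map_neg, map_neg, hc, hc, hw3] at h4
      rw [h4, neg_neg]
    exact hneg (by
      calc c = v (v (v c)) := (hv3 c).symm
        _ = -c := by simp only [h3, map_neg, neg_neg, ← hc, hw3])
  · exfalso
    have h3 : v c = -w c := by
      have h4 := congrArg w (m2 h2)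
      rw [map_neg, hc, hw3] at h4
      rw [h4, neg_neg]
    exact hneg (by
      calc c = v (v (v c)) := (hv3 c).symm
        _ = -c := by simp only [h3, map_neg, neg_neg, ← hc, hw3])
  · exfalso
    subst h2 h3
    exact H.nine hl hw hw3 hv hv3 hc h0 hb1 hb2 e0 e1 e2 

/-- the rotation of the plane of `c` -/
def rot (P Q : (Fin l → ℤ) → ℤ) (c d x : Fin l → ℤ) : Fin l → ℤ := x - (P x + Q x) • c - Q x • d

/-- what is left of `w` outside the plane of `c` -/
theorem rest {u : Module.End ℤ (Fin l → ℤ)} (hw : ∀ x y, B (w x) (w y) = B x y) (hwS : ∀ a ∈ S, w a ∈ S)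
    (hw3 : ∀ x, w (w (w x)) = x) {b : Fin l → ℤ} (hb : b ∈ S)
    (h1 : B (w b) b = 1) {P Q : (Fin l → ℤ) → ℤ} (hP : ∀ x, B x (b - w b) = P x)
    (hQ : ∀ x, B x (w (b - w b)) = Q x) (hR : ∀ x, rot P Q (b - w b) (w (b - w b)) (u x) = w x) :
    (∀ x, w x = x → u x = x) ∧ u b = b ∧ u (b - w b) = b - w b ∧ u (w (b - w b)) = w (b - w b) ∧
      ∀ x, u (u (u x)) = x := by
  obtain ⟨h0, hb1, hb2, hcS, hcc, hc1, hc2, hsum⟩ := H.plane hw hwS hw3 hb h1
  have hbc : b - (b - w b) = w b := by abel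
  have h3b : (3 : ℤ) • b = (b + w b + w (w b)) + (b - w b) - w (w (b - w b)) := by
    rw [map_sub, map_sub, hw3]
    have e : (3 : ℤ) • b = b + b + b := by
      rw [show (3 : ℤ) = 1 + 1 + 1 by norm_num, add_smul, add_smul, one_smul]
    rw [e]; abel
  have hfixc : ∀ x, w x = x → B x (b - w b) = 0 ∧ B x (w (b - w b)) = 0 := by
    intro x hx
    have h2 : B x (b - w b) = 0 := by
      rw [H.sub_right]
      nth_rw 2 [← hx]
      rw [hw, sub_self]
    refine ⟨h2, ?_⟩
    nth_rw 1 [← hx]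
    rw [hw, h2]
  generalize b - w b = c at *
  have hcc' : B (w c) (w c) = 2 := by rw [hw, hcc]
  have hc1' : B (w c) c = -1 := by rw [H.symm, hc1]
  have hww : w (w c) = -c - w c := by
    have h2 : w (w c) = -(c + w c) := (eq_neg_of_add_eq_zero_right hsum)
    rw [h2]; abel
  -- `R` is an isometry
  have hRi : ∀ x y, B (rot P Q c (w c) x) (rot P Q c (w c) y) = B x y := by
    intro x y
    have e1 : B c y = P y := by rw [H.symm, hP]
    have e2 : B (w c) y = Q y := by rw [H.symm, hQ]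
    simp only [rot, H.sub_left, H.sub_right, H.smul_left, H.smul_right, hP x, hQ x, e1, e2, hcc, hc1, hc1', hcc']
    push_cast
    ring
  have hRinj : ∀ x y, rot P Q c (w c) x = rot P Q c (w c) y → x = y := by
    intro x y hxy
    refine sub_eq_zero.1 (H.eq_zero ?_)
    have e1 := hRi x x
    have e2 := hRi x y
    have e3 := hRi y y
    rw [hxy] at e1 e2
    rw [H.sub_left, H.sub_right, H.sub_right, H.symm y x]
    linarith
  have hPc : P c = 2 := by have := hP c; rw [hcc] at this; exact_mod_cast this.symm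
  have hQc : Q c = -1 := by have := hQ c; rw [hc1] at this; exact_mod_cast this.symm
  have hPd : P (w c) = -1 := by have := hP (w c); rw [hc1'] at this; exact_mod_cast this.symm
  have hQd : Q (w c) = 2 := by have := hQ (w c); rw [hcc'] at this; exact_mod_cast this.symm
  have hRc : rot P Q c (w c) c = w c := by
    simp only [rot, hPc, hQc]
    norm_num
  have hRd : rot P Q c (w c) (w c) = w (w c) := by
    simp only [rot, hPd, hQd]
    rw [hww]
    module
  have hRf : ∀ x, w x = x → rot P Q c (w c) x = x := by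
    intro x hx
    obtain ⟨h2, h3⟩ := hfixc x hx
    rw [hP] at h2
    rw [hQ] at h3
    have h4 : P x = 0 := by exact_mod_cast h2
    have h5 : Q x = 0 := by exact_mod_cast h3
    simp only [rot, h4, h5]
    norm_num
  have f1 : ∀ x, w x = x → u x = x := by
    intro x hx
    apply hRinj
    rw [hR, hx, hRf x hx]
  have f2 : u c = c := by
    apply hRinj
    rw [hR, hRc]
  have f3 : u (w c) = w c := by
    apply hRinj
    rw [hR, hRd]
  refine ⟨f1, ?_, f2, f3, ?_⟩
  · have h4 : u ((3 : ℤ) • b) = (3 : ℤ) • b := by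
      rw [h3b, map_sub, map_add, f1 (b + w b + w (w b)) (by rw [map_add, map_add, hw3]; abel), f2, hww, map_sub,
        map_neg, f2, f3]
    rw [map_smul] at h4
    exact smul_right_injective _ (by norm_num : (3 : ℤ) ≠ 0) h4
  · -- `P`, `Q` are additive
    have hPadd : ∀ x y, P (x - y) = P x - P y := fun x y => by
      have := hP (x - y)
      rw [H.sub_left, hP, hP] at this
      exact_mod_cast this.symm
    have hQadd : ∀ x y, Q (x - y) = Q x - Q y := fun x y => by
      have := hQ (x - y)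
      rw [H.sub_left, hQ, hQ] at this
      exact_mod_cast this.symm
    have hPs : ∀ (n : ℤ) x, P (n • x) = n * P x := fun n x => by
      have := hP (n • x)
      rw [H.smul_left, hP] at this
      exact_mod_cast this.symm
    have hQs : ∀ (n : ℤ) x, Q (n • x) = n * Q x := fun n x => by
      have := hQ (n • x)
      rw [H.smul_left, hQ] at this
      exact_mod_cast this.symm
    have hwc : ∀ x, w (rot P Q c (w c) x) = rot P Q c (w c) (w x) := by
      intro x
      have e1 : Q (w x) = P x := by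
        have := hQ (w x)
        rw [hw, hP] at this
        exact_mod_cast this.symm
      have e2 : P (w x) = -P x - Q x := by
        have := hP (w x)
        rw [← hw, ← hw, hw3, hww, H.sub_right, H.neg_right, hP, hQ] at this
        have h2 : ((P (w x) : ℤ) : ℚ) = ((-P x - Q x : ℤ) : ℚ) := by push_cast; exact this.symm
        exact_mod_cast h2
      simp only [rot, e1, e2, map_sub, map_smul, hww]
      module
    have hR3 : ∀ x, rot P Q c (w c) (rot P Q c (w c) (rot P Q c (w c) x)) = x := by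
      intro x
      simp only [rot, hPadd, hQadd, hPs, hQs, hPc, hQc, hPd, hQd]
      module
    have hcomm : ∀ x, u (rot P Q c (w c) x) = rot P Q c (w c) (u x) := by
      intro x
      apply hRinj
      rw [hR, hwc, hR]
    have hwu : ∀ x, w (u x) = u (w x) := fun x => by rw [← hR (u x), ← hcomm, hR]
    intro x
    rw [← hR3 (u (u (u x))), hR, hwu, hwu, hR, hwu, hR, hw3]

/-- **M4c** : what is left of `w` is trivial or has a bad root -/
theorem split {u : Module.End ℤ (Fin l → ℤ)} (hw : ∀ x y, B (w x) (w y) = B x y) (hwS : ∀ a ∈ S, w a ∈ S)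
    (hw3 : ∀ x, w (w (w x)) = x) (hu : ∀ x y, B (u x) (u y) = B x y) {b : Fin l → ℤ}
    (hb : b ∈ S) (h1 : B (w b) b = 1) {P Q : (Fin l → ℤ) → ℤ} (hP : ∀ x, B x (b - w b) = P x)
    (hQ : ∀ x, B x (w (b - w b)) = Q x) (hR : ∀ x, rot P Q (b - w b) (w (b - w b)) (u x) = w x) :
    (∀ x, u x = x) ∨ ∃ a ∈ S, B (u a) a = 1 := by
  obtain ⟨-, ub, uc, ud, u3⟩ := H.rest hw hwS hw3 hb h1 hP hQ hR
  obtain ⟨h0, hb1, hb2, -, -, -, -, -⟩ := H.plane hw hwS hw3 hb h1
  have uwb : u (w b) = w b := by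
    have e : w b = b - (b - w b) := by abel
    rw [e, map_sub, ub, uc]
  have uwwb : u (w (w b)) = w (w b) := by
    have e : w (w b) = b - (b - w b) - w (b - w b) := by rw [map_sub]; abel
    rw [e, map_sub, map_sub, ub, uc, ud]
  by_contra hcon
  push Not at hcon
  obtain ⟨⟨x₀, hx₀⟩, hno⟩ := hcon
  have hul : ∀ x y, B (u x) y = B x (u (u y)) := fun x y => by rw [← hu x, u3]
  have hwl : ∀ x y, B (w x) y = B x (w (w y)) := fun x y => by rw [← hw x, hw3]
  -- roots which are not fixed are orthogonal to `b`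
  have claim : ∀ a ∈ S, u a ≠ a → B a b = 0 := by
    intro a ha hua
    have haa := H.two a ha
    obtain ⟨m, hm⟩ := H.int a ha (u a)
    obtain ⟨l0, l1, l2, l3⟩ := H.le_two (a := u a) (b := a) (by rw [hu, haa]) haa
    have hm' : B a (u a) = m := by rw [H.symm, hm]
    have hm'' : B a (u (u a)) = m := by rw [← hul, hm]
    have m2 : m ≠ 2 := by
      rintro rfl
      exact hua (l2 (by rw [hm]; norm_num))
    have m1 : m ≠ 1 := by
      rintro rfl
      exact hno a ha (by rw [hm]; norm_num)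
    have mm2 : m ≤ 2 := by rw [hm] at l0; exact_mod_cast l0
    obtain ⟨p0, e0⟩ := H.int b hb a
    obtain ⟨p1, e1⟩ := H.int (w b) (hwS b hb) a
    obtain ⟨p2, e2⟩ := H.int (w (w b)) (hwS _ (hwS b hb)) a
    have key := H.nonneg ((4 : ℤ) • (a + u a + u (u a)) - (3 * (3 * p0 - p1 - p2)) • b -
      (3 * (3 * p1 - p0 - p2)) • w b - (3 * (3 * p2 - p0 - p1)) • w (w b))
    have s0 : B b a = p0 := by rw [H.symm, e0]
    have s1 : B (w b) a = p1 := by rw [H.symm, e1]
    have s2 : B (w (w b)) a = p2 := by rw [H.symm, e2]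
    have g1 : ∀ y, u y = y → B (u a) y = B a y := fun y hy => by
      nth_rw 1 [← hy]
      rw [hu]
    have g2 : ∀ y, u y = y → B (u (u a)) y = B a y := fun y hy => by
      nth_rw 1 [← hy]
      rw [hu, g1 y hy]
    have g3 : ∀ y, u y = y → B y (u a) = B y a := fun y hy => by rw [H.symm, g1 y hy, H.symm]
    have g4 : ∀ y, u y = y → B y (u (u a)) = B y a := fun y hy => by rw [H.symm, g2 y hy, H.symm]
    have t1 : B (w b) (w b) = 2 := by rw [hw, h0]
    have t2 : B (w (w b)) (w (w b)) = 2 := by rw [hw, hw, h0]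
    have t3 : B (w b) (w (w b)) = 1 := by rw [hw, hb1]
    have t4 : B (w b) b = 1 := by rw [H.symm, hb1]
    have t5 : B (w (w b)) b = 1 := by rw [H.symm, hb2]
    have t6 : B (w (w b)) (w b) = 1 := by rw [H.symm, t3]
    simp only [H.add_left, H.add_right, H.sub_left, H.sub_right, H.smul_left, H.smul_right, g1 b ub, g2 b ub,
      g3 b ub, g4 b ub, g1 _ uwb, g2 _ uwb, g3 _ uwb, g4 _ uwb, g1 _ uwwb, g2 _ uwwb, g3 _ uwwb, g4 _ uwwb, e0, e1, e2,
      s0, s1, s2, h0, hb1, hb2, t1, t2, t3, t4, t5, t6, haa, hm, hm', hm'', hul, u3] at key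
    have key2 : (0 : ℤ) ≤ 96 * (1 + m) - 144 * (p0 ^ 2 + p1 ^ 2 + p2 ^ 2) + 36 * (p0 + p1 + p2) ^ 2 := by
      have h2 : ((0 : ℤ) : ℚ) ≤
          ((96 * (1 + m) - 144 * (p0 ^ 2 + p1 ^ 2 + p2 ^ 2) + 36 * (p0 + p1 + p2) ^ 2 : ℤ) : ℚ) := by
        push_cast at key ⊢
        linarith
      exact_mod_cast h2
    have hp0 : p0 = 0 := num_split (by omega) key2
    rw [e0, hp0, Int.cast_zero]
  -- a root which is not fixed
  obtain ⟨a, ha, hua⟩ : ∃ a ∈ S, u a ≠ a := by
    by_contra hall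
    push Not at hall
    apply hx₀
    refine sub_eq_zero.1 (H.span _ fun a ha => ?_)
    rw [H.sub_left]
    nth_rw 1 [← hall a ha]
    rw [hu, sub_self]
  obtain ⟨d, hd, h2, h3⟩ := H.conn a ha b hb
  have hud : u d = d := by
    by_contra h4
    exact h3 (by rw [H.symm, claim d hd h4])
  obtain ⟨n, hn⟩ := H.int d hd a
  have hue : u (a - n • d) = a - n • d := by
    by_contra h4
    have h5 := claim _ (H.refl a ha d hd n hn) h4
    rw [H.sub_left, H.smul_left, claim a ha hua, ← hn, zero_sub, neg_eq_zero, mul_eq_zero] at h5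
    rcases h5 with h5 | h5
    · exact h2 h5
    · exact h3 (by rw [H.symm, h5])
  apply hua
  have e : a = (a - n • d) + n • d := by abel
  rw [e, map_add, map_smul, hue, hud]

end RSys

end Cfsg.Agent.H875.Mono
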