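import Cfsg.Agent.H225.Gen.Long
import Cfsg.Agent.H875.Mono.Abs

/-!
# S2187, M4b and M4c (helper875): bad roots of elements of order three

`D` one of `G₂, D₄, F₄, E₆, E₇, E₈` (`h : HiList D`), `LL` the long roots, `w³ = 1`, `b ∈ LL` with `⟨w b, b⟩ = 1`,
`c := b - w b`.

* `stab` : an element of order three commuting with `w` permutes `{c, w c, w w c}` cyclically;
* `splitA` : `w' := (s₀ s₁)⁻¹ w`, `s₀`, `s₁` the reflections in `c`, `w c`, fixes the fixed vectors of `w` and `b`, and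
  `w' = 1` or there is `b' ∈ LL` with `⟨w' b', b'⟩ = 1`.
-/

set_option autoImplicit false
set_option linter.unusedSectionVars false

namespace Cfsg.Agent.H875.Mono

open CoxeterSystem Cfsg Cfsg.Lie Cfsg.Lie.ChevalleyDatum
open Cfsg.Agent.ChevalleyStructure Cfsg.Agent.ChevalleyStructure.Elts Cfsg.Agent.ChevalleyStructure.CoxeterGeom
  Cfsg.Agent.ChevalleyStructure.CoxeterGeomTypes Cfsg.Agent.ChevalleyStructure.NPerm
open Cfsg.Agent.Tits.Roots Cfsg.Agent.Tits.Core Cfsg.Agent.Nodes Cfsg.Agent.Nodes.Reps Cfsg.Agent.Nodes.BNOf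
  Cfsg.Agent.Nodes.Coroot Cfsg.Agent.Nodes.SubComb Cfsg.Agent.KFacts.RgdSL Cfsg.Agent.H123.ExcComb
  Cfsg.Agent.Nodes.RGDChev Cfsg.Agent.BpExc.Fr
open Cfsg.Agent.H818.StrP.UTab Cfsg.Agent.H818.StrP.UAct
open Cfsg.Agent.H225.Gen (LL LL_rep LL_root LL_refl LL_conn LL_span th th_root Conn)

variable {D : ChevalleyDatum} {l : ℕ} {M : CoxeterMatrix (Fin l)} {W : Type*} [Group W]

/-- the normalised form -/
noncomputable def BB (cs : CoxeterSystem M W) (hp : IsType D l M) [Fintype W] (x y : Fin l → ℤ) : ℚ :=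
  2 * (form cs hp.isCartan x y : ℚ) / (form cs hp.isCartan (th D l) (th D l) : ℚ)

variable (h : HiList D) (hp : IsType D l M) (cs : CoxeterSystem M W)

include h in
theorem th_pos [Fintype W] : (0 : ℚ) < (form cs hp.isCartan (th D l) (th D l) : ℚ) := by
  exact_mod_cast form_pos cs hp.isCartan (th_root h hp cs).ne_zero

include h in
theorem BB_eq [Fintype W] (x : Fin l → ℤ) {a : Fin l → ℤ} (ha : a ∈ LL cs hp) :
    BB cs hp x a = cpr cs hp.isCartan x a := by
  have h1 := two_form_cpr cs hp.isCartan x (LL_root h hp cs ha)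
  have h2 : form cs hp.isCartan a a = form cs hp.isCartan (th D l) (th D l) := by
    obtain ⟨w, rfl⟩ := ha
    exact form_rep cs hp.isCartan w _ _
  have h3 := th_pos h hp cs
  rw [h2] at h1
  unfold BB
  rw [div_eq_iff h3.ne']
  exact_mod_cast h1

theorem BB_rep [Fintype W] (w : W) (x y : Fin l → ℤ) :
    BB cs hp (rep cs hp.isCartan w x) (rep cs hp.isCartan w y) = BB cs hp x y := by
  unfold BB
  rw [form_rep]

include h in
/-- the long roots are a system as in `Abs` -/
theorem rsys [Fintype W] : RSys (BB cs hp) (LL cs hp) where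
  add_left := fun x y z => by
    unfold BB
    rw [form_add_left, Int.cast_add]
    ring
  symm := fun x y => by
    unfold BB
    rw [form_comm]
  pos := fun x hx => by
    have h1 : (0 : ℚ) < form cs hp.isCartan x x := by exact_mod_cast form_pos cs hp.isCartan hx
    have h2 := th_pos h hp cs
    unfold BB
    positivity
  two := fun a ha => by
    rw [BB_eq h hp cs a ha, cpr_self cs hp.isCartan (LL_root h hp cs ha)]
    norm_num
  int := fun a ha x => ⟨_, BB_eq h hp cs x ha⟩
  refl := fun a ha b hb n hn => by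
    rw [BB_eq h hp cs a hb] at hn
    have h1 : cpr cs hp.isCartan a b = n := by exact_mod_cast hn
    rw [← h1]
    exact LL_refl hp cs ha (LL_root h hp cs hb)
  conn := fun a ha b hb => by
    obtain ⟨d, hd, h1, h2⟩ := LL_conn h hp cs ha hb
    refine ⟨d, hd, ?_, ?_⟩
    · rw [BB_eq h hp cs a hd]
      exact_mod_cast h1
    · rw [BB_eq h hp cs b hd]
      have := finite_W hp cs
      have h3 : cpr cs hp.isCartan b d ≠ 0 := fun h4 =>
        h2 ((cpr_zero_comm cs hp.isCartan (LL_root h hp cs hb) (LL_root h hp cs hd)).1 h4)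
      exact_mod_cast h3
  span := fun x hx => LL_span h hp cs fun a ha => by
    have h1 := hx a ha
    rw [BB_eq h hp cs x ha] at h1
    exact_mod_cast h1

theorem rep_three {w : W} (hw : w ^ 3 = 1) (x : Fin l → ℤ) :
    rep cs hp.isCartan w (rep cs hp.isCartan w (rep cs hp.isCartan w x)) = x := by
  rw [← rep_mul_apply, ← rep_mul_apply]
  have h1 : w * w * w = 1 := by rw [← hw, pow_succ, pow_two]
  rw [h1, map_one, Module.End.one_apply]

include h in
theorem rank_le (hp : IsType D l M) : l ≤ 8 := by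
  rw [← hp.rank_eq]
  simp only [HiList, List.mem_cons, List.not_mem_nil, or_false] at h
  rcases h with rfl | rfl | rfl | rfl | rfl | rfl <;> decide

include h in
/-- **M4b** : the `A₂` of a bad root is permuted cyclically. -/
theorem stab {w v : W} (hc : w * v = v * w) (hw : w ^ 3 = 1) (hv : v ^ 3 = 1) {b : Fin l → ℤ} (hb : b ∈ LL cs hp)
    (h1 : cpr cs hp.isCartan (rep cs hp.isCartan w b) b = 1) :
    ∃ j : ℕ, rep cs hp.isCartan v (b - rep cs hp.isCartan w b) =
      rep cs hp.isCartan (w ^ j) (b - rep cs hp.isCartan w b) := by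
  have := finite_W hp cs
  have := Fintype.ofFinite W
  have H := rsys h hp cs
  rcases H.stab (rank_le h hp) (w := rep cs hp.isCartan w) (v := rep cs hp.isCartan v) (BB_rep hp cs w)
    (fun a ha => LL_rep hp cs ha w) (rep_three hp cs hw) (BB_rep hp cs v) (rep_three hp cs hv)
    (fun x => by rw [← rep_mul_apply, hc, rep_mul_apply]) hb (by rw [BB_eq h hp cs _ hb, h1, Int.cast_one]) with
    h2 | h2 | h2
  · exact ⟨0, by rw [pow_zero, map_one, Module.End.one_apply, h2]⟩
  · exact ⟨1, by rw [pow_one, h2]⟩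
  · exact ⟨2, by rw [pow_two, rep_mul_apply, h2]⟩

variable {w : W} {b : Fin l → ℤ} {s₀ s₁ : W}

include h in
/-- the relation between `w` and `w' = (s₀ s₁)⁻¹ w` -/
theorem rot_rest [Fintype W] (hw : w ^ 3 = 1) (hb : b ∈ LL cs hp)
    (h1 : cpr cs hp.isCartan (rep cs hp.isCartan w b) b = 1)
    (h0 : ∀ x, rep cs hp.isCartan s₀ x = x - cpr cs hp.isCartan x (b - rep cs hp.isCartan w b) •
      (b - rep cs hp.isCartan w b))
    (h1' : ∀ x, rep cs hp.isCartan s₁ x = x - cpr cs hp.isCartan x (rep cs hp.isCartan w (b - rep cs hp.isCartan w b)) •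
      rep cs hp.isCartan w (b - rep cs hp.isCartan w b)) (x : Fin l → ℤ) :
    RSys.rot (fun x => cpr cs hp.isCartan x (b - rep cs hp.isCartan w b))
      (fun x => cpr cs hp.isCartan x (rep cs hp.isCartan w (b - rep cs hp.isCartan w b)))
      (b - rep cs hp.isCartan w b) (rep cs hp.isCartan w (b - rep cs hp.isCartan w b))
      (rep cs hp.isCartan ((s₀ * s₁)⁻¹ * w) x) = rep cs hp.isCartan w x := by
  have H := rsys h hp cs
  obtain ⟨-, -, -, hcS, -, hc1, -, -⟩ := H.plane (w := rep cs hp.isCartan w) (BB_rep hp cs w)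
    (fun a ha => LL_rep hp cs ha w) (rep_three hp cs hw) hb (by rw [BB_eq h hp cs _ hb, h1, Int.cast_one])
  have hdS := LL_rep hp cs hcS w
  generalize b - rep cs hp.isCartan w b = c at *
  generalize rep cs hp.isCartan w c = d at *
  have hdc : cpr cs hp.isCartan d c = -1 := by
    rw [H.symm, BB_eq h hp cs _ hcS] at hc1
    exact_mod_cast hc1
  have e : rep cs hp.isCartan w x = rep cs hp.isCartan s₀ (rep cs hp.isCartan s₁
      (rep cs hp.isCartan ((s₀ * s₁)⁻¹ * w) x)) := by
    rw [← rep_mul_apply, ← rep_mul_apply]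
    congr 2
    group
  rw [e, h1', h0]
  generalize rep cs hp.isCartan ((s₀ * s₁)⁻¹ * w) x = z
  have hcr := LL_root h hp cs hcS
  have := finite_W hp cs
  simp only [RSys.rot]
  rw [cpr_sub hcr, cpr_smul cs _ _ _ hcr, hdc]
  module

include h in
/-- **M4c** -/
theorem splitA (hw : w ^ 3 = 1) (hb : b ∈ LL cs hp)
    (h1 : cpr cs hp.isCartan (rep cs hp.isCartan w b) b = 1)
    (h0 : ∀ x, rep cs hp.isCartan s₀ x = x - cpr cs hp.isCartan x (b - rep cs hp.isCartan w b) •
      (b - rep cs hp.isCartan w b))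
    (h1' : ∀ x, rep cs hp.isCartan s₁ x = x - cpr cs hp.isCartan x (rep cs hp.isCartan w (b - rep cs hp.isCartan w b)) •
      rep cs hp.isCartan w (b - rep cs hp.isCartan w b)) :
    (∀ x, rep cs hp.isCartan w x = x → rep cs hp.isCartan ((s₀ * s₁)⁻¹ * w) x = x) ∧
      rep cs hp.isCartan ((s₀ * s₁)⁻¹ * w) b = b ∧
      ((s₀ * s₁)⁻¹ * w = 1 ∨ ∃ b' ∈ LL cs hp,
        cpr cs hp.isCartan (rep cs hp.isCartan ((s₀ * s₁)⁻¹ * w) b') b' = 1) := by
  have := finite_W hp cs
  have := Fintype.ofFinite W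
  have H := rsys h hp cs
  have hb1 : BB cs hp (rep cs hp.isCartan w b) b = 1 := by rw [BB_eq h hp cs _ hb, h1, Int.cast_one]
  obtain ⟨-, -, -, hcS, -, -, -, -⟩ := H.plane (w := rep cs hp.isCartan w) (BB_rep hp cs w)
    (fun a ha => LL_rep hp cs ha w) (rep_three hp cs hw) hb hb1
  have hR := rot_rest h hp cs hw hb h1 h0 h1'
  obtain ⟨r1, r2, -, -, -⟩ := H.rest (w := rep cs hp.isCartan w) (u := rep cs hp.isCartan ((s₀ * s₁)⁻¹ * w))
    (BB_rep hp cs w) (fun a ha => LL_rep hp cs ha w) (rep_three hp cs hw) hb hb1 (fun x => BB_eq h hp cs x hcS)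
    (fun x => BB_eq h hp cs x (LL_rep hp cs hcS w)) hR
  refine ⟨r1, r2, ?_⟩
  rcases H.split (w := rep cs hp.isCartan w) (u := rep cs hp.isCartan ((s₀ * s₁)⁻¹ * w))
    (BB_rep hp cs w) (fun a ha => LL_rep hp cs ha w) (rep_three hp cs hw) (BB_rep hp cs _) hb hb1
    (fun x => BB_eq h hp cs x hcS) (fun x => BB_eq h hp cs x (LL_rep hp cs hcS w)) hR with h2 | ⟨a, ha, h2⟩
  · left
    apply rep_injective cs hp.isCartan
    rw [map_one]
    exact LinearMap.ext h2
  · right
    refine ⟨a, ha, ?_⟩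
    rw [BB_eq h hp cs _ ha] at h2
    exact_mod_cast h2

end Cfsg.Agent.H875.Mono
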