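import Cfsg.Agent.H875.Mono.Split

/-!
# S2187, trich5 (helper875): the orbits of long roots under an elementary abelian 5-group without `60°`

* `trich5` : fixed, five orthogonal roots, or five roots with sum zero (extended `A₄`).
-/

set_option autoImplicit false
set_option linter.unusedSectionVars false

namespace Cfsg.Agent.H875.Mono

open CoxeterSystem Cfsg Cfsg.Lie Cfsg.Lie.ChevalleyDatum
open Cfsg.Agent.ChevalleyStructure Cfsg.Agent.ChevalleyStructure.Elts Cfsg.Agent.ChevalleyStructure.CoxeterGeom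
  Cfsg.Agent.ChevalleyStructure.CoxeterGeomTypes Cfsg.Agent.ChevalleyStructure.NPerm
open Cfsg.Agent.Tits.Roots Cfsg.Agent.Tits.Core Cfsg.Agent.Nodes Cfsg.Agent.Nodes.Reps Cfsg.Agent.Nodes.BNOf
  Cfsg.Agent.Nodes.Coroot Cfsg.Agent.Nodes.SubComb Cfsg.Agent.KFacts.RgdSL Cfsg.Agent.H123.ExcComb
  Cfsg.Agent.Nodes.RGDChev Cfsg.Agent.BpExc.Fr
open Cfsg.Agent.H818.StrP.UTab Cfsg.Agent.H818.StrP.UAct
open Cfsg.Agent.H225.Gen (LL LL_rep LL_root LL_refl LL_conn LL_span th th_root Conn)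

/-- orthogonal vectors -/
theorem RSys.card_ortho {l : ℕ} {B : (Fin l → ℤ) → (Fin l → ℤ) → ℚ} {S : Set (Fin l → ℤ)} (H : RSys B S) {n : ℕ}
    (f : Fin n → Fin l → ℤ) (h2 : ∀ i, B (f i) (f i) ≠ 0) (h : ∀ i j, i ≠ j → B (f i) (f j) = 0) : n ≤ l := by
  have hli : LinearIndependent ℤ f := by
    rw [Fintype.linearIndependent_iff]
    intro c hc q
    have h3 := H.sum_left Finset.univ c f (f q)
    rw [hc, H.zero_left, Finset.sum_eq_single q (fun p _ hp => by rw [h p q hp, mul_zero])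
      (fun hq => absurd (Finset.mem_univ _) hq)] at h3
    have h4 := (mul_eq_zero.1 h3.symm).resolve_right (h2 q)
    exact_mod_cast h4
  have h3 := hli.fintype_card_le_finrank
  rwa [Module.finrank_fintype_fun_eq_card, Fintype.card_fin, Fintype.card_fin] at h3

theorem zpow_not_mem {W : Type*} [Group W] {T : Subgroup W} {x : W} (hx : x ^ 5 = 1) (hxT : x ∉ T) {n : ℤ}
    (hn : ¬ (5 : ℤ) ∣ n) : x ^ n ∉ T := by
  intro h1
  apply hxT
  have h5 : x ^ (5 : ℤ) = 1 := by exact_mod_cast hx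
  have hr : n % 5 = 1 ∨ n % 5 = 2 ∨ n % 5 = 3 ∨ n % 5 = 4 := by omega
  have key : ∀ m : ℤ, n * m = 5 * (n * m / 5) + 1 → x ∈ T := by
    intro m hm
    have h2 := T.zpow_mem h1 m
    rw [← zpow_mul, hm, zpow_add, zpow_mul, h5, one_zpow, one_mul, zpow_one] at h2
    exact h2
  rcases hr with hr | hr | hr | hr
  · exact key 1 (by omega)
  · exact key 3 (by omega)
  · exact key 2 (by omega)
  · exact key 4 (by omega)

variable {D : ChevalleyDatum} {l : ℕ} {M : CoxeterMatrix (Fin l)} {W : Type*} [Group W]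
variable (h : HiList D) (hp : IsType D l M) (cs : CoxeterSystem M W)

/-- the elements of `V` mapping `a` into its `K`-orbit -/
def OK (V K : Subgroup W) (hc : ∀ v ∈ V, ∀ w ∈ V, v * w = w * v) (hK : K ≤ V) (a : Fin l → ℤ) : Subgroup W where
  carrier := {v | v ∈ V ∧ ∃ k ∈ K, rep cs hp.isCartan v a = rep cs hp.isCartan k a}
  one_mem' := ⟨one_mem _, 1, one_mem _, rfl⟩
  mul_mem' := by
    rintro v w ⟨hv, k, hk, e⟩ ⟨hw, k', hk', e'⟩
    refine ⟨mul_mem hv hw, k' * k, mul_mem hk' hk, ?_⟩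
    rw [rep_mul_apply, e', ← rep_mul_apply, hc v hv _ (hK hk'), rep_mul_apply, e, ← rep_mul_apply]
  inv_mem' := by
    rintro v ⟨hv, k, hk, e⟩
    refine ⟨inv_mem hv, k⁻¹, inv_mem hk, ?_⟩
    have h2 : rep cs hp.isCartan (v * k⁻¹) a = a := by
      rw [hc _ hv _ (hK (inv_mem hk)), rep_mul_apply, e, ← rep_mul_apply, inv_mul_cancel, map_one,
        Module.End.one_apply]
    calc rep cs hp.isCartan v⁻¹ a = rep cs hp.isCartan v⁻¹ (rep cs hp.isCartan (v * k⁻¹) a) := by rw [h2]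
      _ = _ := by rw [← rep_mul_apply, inv_mul_cancel_left]

include h in
/-- nine elements -/
theorem nine_of {a : Fin l → ℤ} (ha : a ∈ LL cs hp) (e : Fin 9 → W)
    (hz : ∀ k m, k ≠ m → cpr cs hp.isCartan (rep cs hp.isCartan ((e k)⁻¹ * e m) a) a = 0) : False := by
  have hfin := finite_W hp cs
  have hft := Fintype.ofFinite W
  have H := rsys h hp cs
  have h1 := rank_le h hp
  have h2 := H.card_ortho (fun k : Fin 9 => rep cs hp.isCartan (e k) a)
    (fun i => by
      show BB cs hp (rep cs hp.isCartan (e i) a) (rep cs hp.isCartan (e i) a) ≠ 0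
      rw [BB_rep, H.two a ha]
      norm_num)
    (fun k m hkm => by
      show BB cs hp (rep cs hp.isCartan (e k) a) (rep cs hp.isCartan (e m) a) = 0
      rw [← BB_rep hp cs (e k)⁻¹, ← rep_mul_apply, ← rep_mul_apply, inv_mul_cancel, map_one, Module.End.one_apply,
        H.symm, BB_eq h hp cs _ ha, hz k m hkm, Int.cast_zero])
  omega

include h in
/-- **trich5** -/
theorem trich5 (V : Subgroup W) (hc : ∀ v ∈ V, ∀ w ∈ V, v * w = w * v) (h5 : ∀ v ∈ V, v ^ 5 = 1)
    {a : Fin l → ℤ} (ha : a ∈ LL cs hp)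
    (hno : ∀ v ∈ V, cpr cs hp.isCartan (rep cs hp.isCartan v a) a ≠ 1) :
    (∀ v ∈ V, rep cs hp.isCartan v a = a) ∨
    (∃ f ∈ V, (∀ j : ℕ, ¬ 5 ∣ j → cpr cs hp.isCartan (rep cs hp.isCartan (f ^ j) a) a = 0) ∧
      ∀ v ∈ V, ∃ j : ℕ, rep cs hp.isCartan v a = rep cs hp.isCartan (f ^ j) a) ∨
    (∃ f ∈ V, cpr cs hp.isCartan (rep cs hp.isCartan f a) a = -1 ∧
      a + rep cs hp.isCartan f a + rep cs hp.isCartan (f ^ 2) a + rep cs hp.isCartan (f ^ 3) a +
        rep cs hp.isCartan (f ^ 4) a = 0 ∧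
      ∀ v ∈ V, ∃ j : ℕ, rep cs hp.isCartan v a = rep cs hp.isCartan (f ^ j) a) := by
  have hfin := finite_W hp cs
  have hft := Fintype.ofFinite W
  have H := rsys h hp cs
  have haa := H.two a ha
  -- the values
  have val : ∀ v ∈ V, rep cs hp.isCartan v a = a ∨ cpr cs hp.isCartan (rep cs hp.isCartan v a) a = 0 ∨
      cpr cs hp.isCartan (rep cs hp.isCartan v a) a = -1 := by
    intro v hv
    obtain ⟨l0, l1, l2, l4⟩ := H.le_two (a := rep cs hp.isCartan v a) (b := a) (by rw [BB_rep, haa]) haa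
    rw [BB_eq h hp cs _ ha] at l0 l1 l2 l4
    have n1 := hno v hv
    generalize cpr cs hp.isCartan (rep cs hp.isCartan v a) a = n at l0 l1 l2 l4 n1
    have l0' : n ≤ 2 := by exact_mod_cast l0
    have l1' : -2 ≤ n := by exact_mod_cast l1
    have h7 : n ≠ -2 := by
      rintro rfl
      have h8 := l4 (by norm_num)
      have h9 : rep cs hp.isCartan (v ^ 5) a = a := by rw [h5 v hv, map_one, Module.End.one_apply]
      simp only [pow_succ, pow_zero, one_mul, rep_mul_apply, h8, map_neg, neg_neg] at h9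
      have h10 : BB cs hp a a = BB cs hp (-a) a := by rw [h9]
      rw [H.neg_left, haa] at h10
      norm_num at h10
    have hcases : n = 2 ∨ n = 0 ∨ n = -1 := by omega
    rcases hcases with rfl | rfl | rfl
    · exact Or.inl (l2 (by norm_num))
    · exact Or.inr (Or.inl rfl)
    · exact Or.inr (Or.inr rfl)
  by_cases hF : ∀ v ∈ V, rep cs hp.isCartan v a = a
  · exact Or.inl hF
  push Not at hF
  obtain ⟨f₀, hf₀, hf₀a⟩ := hF
  have hcomm : ∀ {x y : W}, x ∈ V → y ∈ V → ∀ i j i' j' : ℤ, (x ^ i * y ^ j)⁻¹ * (x ^ i' * y ^ j') =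
      x ^ (i' - i) * y ^ (j' - j) := by
    intro x y hx hy i j i' j'
    have h1 : Commute x y := hc x hx y hy
    have h2 : Commute (x ^ (i' - i)) (y ^ j) := (h1.zpow_zpow _ _)
    rw [inv_mul_eq_iff_eq_mul]
    calc x ^ i' * y ^ j' = x ^ i * (x ^ (i' - i)) * y ^ j' := by rw [← zpow_add]; congr 2; ring
      _ = x ^ i * (x ^ (i' - i)) * (y ^ j * y ^ (j' - j)) := by rw [← zpow_add y]; congr 2; ring
      _ = x ^ i * ((x ^ (i' - i)) * y ^ j) * y ^ (j' - j) := by simp only [mul_assoc]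
      _ = x ^ i * (y ^ j * (x ^ (i' - i))) * y ^ (j' - j) := by rw [h2.eq]
      _ = _ := by simp only [mul_assoc]
  have hnat : ∀ {f : W}, f ∈ V → ∀ k ∈ Subgroup.zpowers f, ∃ j : ℕ, k = f ^ j := by
    intro f hf k hk
    obtain ⟨j, hj⟩ := (mem_powers_iff_mem_zpowers).2 hk
    exact ⟨j, hj.symm⟩
  by_cases hm : ∃ f ∈ V, cpr cs hp.isCartan (rep cs hp.isCartan f a) a = -1
  · right; right
    obtain ⟨f, hf, hfa⟩ := hm
    have hf5 : ∀ x, rep cs hp.isCartan f (rep cs hp.isCartan f (rep cs hp.isCartan f (rep cs hp.isCartan f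
        (rep cs hp.isCartan f x)))) = x := by
      intro x
      have h1 : rep cs hp.isCartan (f ^ 5) x = x := by rw [h5 f hf, map_one, Module.End.one_apply]
      simpa only [pow_succ, pow_zero, one_mul, rep_mul_apply] using h1
    have p2 : rep cs hp.isCartan (f ^ 2) a = rep cs hp.isCartan f (rep cs hp.isCartan f a) := by
      rw [pow_two, rep_mul_apply]
    have p3 : rep cs hp.isCartan (f ^ 3) a = rep cs hp.isCartan f (rep cs hp.isCartan f (rep cs hp.isCartan f a)) := by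
      rw [pow_succ, rep_mul_apply, pow_two, rep_mul_apply]
    have p4 : rep cs hp.isCartan (f ^ 4) a = rep cs hp.isCartan f (rep cs hp.isCartan f (rep cs hp.isCartan f
        (rep cs hp.isCartan f a))) := by
      rw [pow_succ, rep_mul_apply, pow_succ, rep_mul_apply, pow_two, rep_mul_apply]
    -- the numbers
    have c1 : BB cs hp (rep cs hp.isCartan f a) a = -1 := by rw [BB_eq h hp cs _ ha, hfa]; norm_num
    have c1' : BB cs hp a (rep cs hp.isCartan f a) = -1 := by rw [H.symm, c1]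
    obtain ⟨c, hcv, hc01⟩ : ∃ c : ℤ, cpr cs hp.isCartan (rep cs hp.isCartan (f ^ 2) a) a = c ∧ (c = 0 ∨ c = -1) := by
      refine ⟨_, rfl, ?_⟩
      rcases val _ (pow_mem hf 2) with h1 | h1 | h1
      · exfalso
        have h2 : rep cs hp.isCartan f a = a := by
          rw [p2] at h1
          have h3 := hf5 a
          rw [h1, h1] at h3
          exact h3
        rw [h2, haa] at c1
        norm_num at c1
      · exact Or.inl h1
      · exact Or.inr h1
    have c2 : BB cs hp (rep cs hp.isCartan f (rep cs hp.isCartan f a)) a = c := by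
      rw [← p2, BB_eq h hp cs _ ha, hcv]
    have c2' : BB cs hp a (rep cs hp.isCartan f (rep cs hp.isCartan f a)) = c := by rw [H.symm, c2]
    have c3 : BB cs hp (rep cs hp.isCartan f (rep cs hp.isCartan f (rep cs hp.isCartan f a))) a = c := by
      rw [← BB_rep hp cs f, ← BB_rep hp cs f, hf5, c2']
    have c3' : BB cs hp a (rep cs hp.isCartan f (rep cs hp.isCartan f (rep cs hp.isCartan f a))) = c := by
      rw [H.symm, c3]
    have c4 : BB cs hp (rep cs hp.isCartan f (rep cs hp.isCartan f (rep cs hp.isCartan f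
        (rep cs hp.isCartan f a)))) a = -1 := by
      rw [← BB_rep hp cs f, hf5, c1']
    have c4' : BB cs hp a (rep cs hp.isCartan f (rep cs hp.isCartan f (rep cs hp.isCartan f
        (rep cs hp.isCartan f a)))) = -1 := by rw [H.symm, c4]
    have hs : BB cs hp (a + rep cs hp.isCartan f a + rep cs hp.isCartan (f ^ 2) a + rep cs hp.isCartan (f ^ 3) a +
        rep cs hp.isCartan (f ^ 4) a) (a + rep cs hp.isCartan f a + rep cs hp.isCartan (f ^ 2) a +
        rep cs hp.isCartan (f ^ 3) a + rep cs hp.isCartan (f ^ 4) a) = 10 * c := by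
      rw [p2, p3, p4]
      simp only [H.add_left, H.add_right, BB_rep, c1, c1', c2, c2', c3, c3', c4, c4', haa]
      ring
    have hc0 : c = 0 := by
      rcases hc01 with h1 | h1
      · exact h1
      · exfalso
        have h2 := H.nonneg (a + rep cs hp.isCartan f a + rep cs hp.isCartan (f ^ 2) a + rep cs hp.isCartan (f ^ 3) a +
          rep cs hp.isCartan (f ^ 4) a)
        rw [hs, h1] at h2
        norm_num at h2
    subst hc0
    have hsum : a + rep cs hp.isCartan f a + rep cs hp.isCartan (f ^ 2) a + rep cs hp.isCartan (f ^ 3) a +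
        rep cs hp.isCartan (f ^ 4) a = 0 := H.eq_zero (by rw [hs]; norm_num)
    have hfV : Subgroup.zpowers f ≤ V := (Subgroup.zpowers_le).2 hf
    have hfT : ∀ n : ℤ, f ^ n ∈ OK hp cs V (Subgroup.zpowers f) hc hfV a := fun n =>
      ⟨zpow_mem hf _, _, Subgroup.zpow_mem_zpowers f _, rfl⟩
    have key : ∀ v ∈ V, v ∉ OK hp cs V (Subgroup.zpowers f) hc hfV a →
        cpr cs hp.isCartan (rep cs hp.isCartan v a) a = 0 := by
      intro v hv hv1
      have hval : ∀ j : ℕ, cpr cs hp.isCartan (rep cs hp.isCartan (v * f ^ j) a) a = 0 ∨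
          cpr cs hp.isCartan (rep cs hp.isCartan (v * f ^ j) a) a = -1 := by
        intro j
        rcases val _ (mul_mem hv (pow_mem hf j)) with h1 | h1 | h1
        · exfalso
          have h2 : v * f ^ j ∈ OK hp cs V (Subgroup.zpowers f) hc hfV a :=
            ⟨mul_mem hv (pow_mem hf j), 1, one_mem _, by rw [h1, map_one, Module.End.one_apply]⟩
          have h3 := hfT j
          rw [zpow_natCast] at h3
          exact hv1 ((Subgroup.mul_mem_cancel_right _ h3).1 h2)
        · exact Or.inl h1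
        · exact Or.inr h1
      have h0 := hval 0
      have h1 := hval 1
      have h2 := hval 2
      have h3 := hval 3
      have h4 := hval 4
      rw [pow_zero, mul_one] at h0
      rw [pow_one] at h1
      have h6 : BB cs hp (rep cs hp.isCartan v (a + rep cs hp.isCartan f a + rep cs hp.isCartan (f ^ 2) a +
          rep cs hp.isCartan (f ^ 3) a + rep cs hp.isCartan (f ^ 4) a)) a = 0 := by
        rw [hsum, map_zero, H.zero_left]
      rw [map_add, map_add, map_add, map_add, H.add_left, H.add_left, H.add_left, H.add_left, ← rep_mul_apply,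
        ← rep_mul_apply, ← rep_mul_apply, ← rep_mul_apply, BB_eq h hp cs _ ha, BB_eq h hp cs _ ha,
        BB_eq h hp cs _ ha, BB_eq h hp cs _ ha, BB_eq h hp cs _ ha] at h6
      have h7 : cpr cs hp.isCartan (rep cs hp.isCartan v a) a + cpr cs hp.isCartan (rep cs hp.isCartan (v * f) a) a +
          cpr cs hp.isCartan (rep cs hp.isCartan (v * f ^ 2) a) a +
          cpr cs hp.isCartan (rep cs hp.isCartan (v * f ^ 3) a) a +
          cpr cs hp.isCartan (rep cs hp.isCartan (v * f ^ 4) a) a = 0 := by exact_mod_cast h6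
      omega
    refine ⟨f, hf, hfa, hsum, fun v hv => ?_⟩
    by_contra hcon
    push Not at hcon
    have hv2 : v ∉ OK hp cs V (Subgroup.zpowers f) hc hfV a := by
      rintro ⟨-, k, hk, e⟩
      obtain ⟨j, rfl⟩ := hnat hf k hk
      exact hcon j e
    refine nine_of h hp cs ha (fun k => v ^ (((k : ℕ) / 2 : ℕ) : ℤ) * f ^ ((2 * ((k : ℕ) % 2) : ℕ) : ℤ)) fun k m hkm => ?_
    show cpr cs hp.isCartan (rep cs hp.isCartan ((v ^ (((k : ℕ) / 2 : ℕ) : ℤ) * f ^ ((2 * ((k : ℕ) % 2) : ℕ) : ℤ))⁻¹ *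
      (v ^ (((m : ℕ) / 2 : ℕ) : ℤ) * f ^ ((2 * ((m : ℕ) % 2) : ℕ) : ℤ))) a) a = 0
    rw [hcomm hv hf]
    have hk9 := k.2
    have hm9 := m.2
    have hne : (k : ℕ) ≠ m := fun e => hkm (Fin.ext e)
    by_cases hi : (k : ℕ) / 2 = (m : ℕ) / 2
    · rw [hi, sub_self, zpow_zero, one_mul]
      have h1 : ((2 * ((m : ℕ) % 2) : ℕ) : ℤ) - ((2 * ((k : ℕ) % 2) : ℕ) : ℤ) = 2 ∨
          ((2 * ((m : ℕ) % 2) : ℕ) : ℤ) - ((2 * ((k : ℕ) % 2) : ℕ) : ℤ) = -2 := by omega
      rcases h1 with h1 | h1 <;> rw [h1]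
      · have h2 : f ^ (2 : ℤ) = f ^ 2 := by norm_cast
        rw [h2, hcv]
      · have h2 : f ^ (-2 : ℤ) = (f ^ 2)⁻¹ := by rw [zpow_neg]; norm_cast
        have h3 : BB cs hp (rep cs hp.isCartan (f ^ 2)⁻¹ a) a = 0 := by
          rw [← BB_rep hp cs (f ^ 2), ← rep_mul_apply, mul_inv_cancel, map_one, Module.End.one_apply, p2, c2']
          norm_num
        rw [h2]
        rw [BB_eq h hp cs _ ha] at h3
        exact_mod_cast h3
    · refine key _ (mul_mem (zpow_mem hv _) (zpow_mem hf _)) fun hmem => ?_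
      have h4 := (Subgroup.mul_mem_cancel_right _ (hfT _)).1 hmem
      exact zpow_not_mem (h5 v hv) hv2 (by omega) h4
  · right; left
    push Not at hm
    have key : ∀ v ∈ V, v ∉ OK hp cs V ⊥ hc bot_le a → cpr cs hp.isCartan (rep cs hp.isCartan v a) a = 0 := by
      intro v hv hva
      rcases val v hv with h1 | h1 | h1
      · exact absurd ⟨hv, 1, one_mem _, by rw [h1, map_one, Module.End.one_apply]⟩ hva
      · exact h1
      · exact absurd h1 (hm v hv)
    have hf1 : f₀ ∉ OK hp cs V ⊥ hc bot_le a := by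
      rintro ⟨-, k, hk, e⟩
      rw [Subgroup.mem_bot.1 hk, map_one, Module.End.one_apply] at e
      exact hf₀a e
    have hle : OK hp cs V ⊥ hc bot_le a ≤ OK hp cs V (Subgroup.zpowers f₀) hc ((Subgroup.zpowers_le).2 hf₀) a := by
      rintro x ⟨hx, k, hk, e⟩
      exact ⟨hx, 1, one_mem _, by rw [e, Subgroup.mem_bot.1 hk]⟩
    refine ⟨f₀, hf₀, fun j hj => ?_, fun v hv => ?_⟩
    · refine key _ (pow_mem hf₀ j) ?_
      have h1 := zpow_not_mem (h5 f₀ hf₀) hf1 (n := (j : ℤ)) (by omega)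
      rwa [zpow_natCast] at h1
    · by_contra hcon
      push Not at hcon
      have hv2 : v ∉ OK hp cs V (Subgroup.zpowers f₀) hc ((Subgroup.zpowers_le).2 hf₀) a := by
        rintro ⟨-, k, hk, e⟩
        obtain ⟨j, rfl⟩ := hnat hf₀ k hk
        exact hcon j e
      refine nine_of h hp cs ha (fun k => v ^ (((k : ℕ) / 5 : ℕ) : ℤ) * f₀ ^ (((k : ℕ) % 5 : ℕ) : ℤ)) fun k m hkm => ?_
      show cpr cs hp.isCartan (rep cs hp.isCartan ((v ^ (((k : ℕ) / 5 : ℕ) : ℤ) * f₀ ^ (((k : ℕ) % 5 : ℕ) : ℤ))⁻¹ *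
        (v ^ (((m : ℕ) / 5 : ℕ) : ℤ) * f₀ ^ (((m : ℕ) % 5 : ℕ) : ℤ))) a) a = 0
      rw [hcomm hv hf₀]
      have hk9 := k.2
      have hm9 := m.2
      have hne : (k : ℕ) ≠ m := fun e => hkm (Fin.ext e)
      refine key _ (mul_mem (zpow_mem hv _) (zpow_mem hf₀ _)) fun hmem => ?_
      by_cases hi : (k : ℕ) / 5 = (m : ℕ) / 5
      · rw [hi, sub_self, zpow_zero, one_mul] at hmem
        exact zpow_not_mem (h5 f₀ hf₀) hf1 (n := ((((m : ℕ) % 5 : ℕ) : ℤ) - (((k : ℕ) % 5 : ℕ) : ℤ))) (by omega) hmem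
      · have h2 := hle hmem
        have h3 : f₀ ^ ((((m : ℕ) % 5 : ℕ) : ℤ) - (((k : ℕ) % 5 : ℕ) : ℤ)) ∈
            OK hp cs V (Subgroup.zpowers f₀) hc ((Subgroup.zpowers_le).2 hf₀) a :=
          ⟨zpow_mem hf₀ _, _, Subgroup.zpow_mem_zpowers f₀ _, rfl⟩
        have h4 := (Subgroup.mul_mem_cancel_right _ h3).1 h2
        exact zpow_not_mem (h5 v hv) hv2 (by omega) h4

end Cfsg.Agent.H875.Mono
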